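import Mathlib
import Cfsg.Agent.PGrp.Basic

/-! Groups of order 64 with a self-centralising element of order 8 conjugate to its odd powers: a presentation. -/

set_option autoImplicit false

namespace Cfsg.Agent.Fong

open Subgroup

/-- `⟨p, q, j, s, t⟩` stands for `x ^ (2p + q) u ^ j a ^ s b ^ t`. -/
@[ext] structure Mo where
  /-- exponent of `x ^ 2` -/
  p : ZMod 4
  /-- exponent of `x` -/
  q : Bool
  /-- exponent of `u` -/
  j : Bool
  /-- exponent of `a` -/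
  s : Bool
  /-- exponent of `b` -/
  t : Bool
  deriving DecidableEq, Fintype

/-- left multiplication -/
def LC (r : ZMod 4) (m : Mo) : Mo := ⟨r + m.p, m.q, m.j, m.s, m.t⟩
/-- left multiplication -/
def Lx (m : Mo) : Mo := ⟨m.p + cond m.q 1 0, !m.q, m.j, m.s, m.t⟩
/-- left multiplication -/
def Lu (m : Mo) : Mo := ⟨m.p + cond m.q 2 0, m.q, !m.j, m.s, m.t⟩
/-- left multiplication -/
def La (α : ZMod 4) (m : Mo) : Mo := ⟨-m.p + cond m.q 3 0 + cond m.s α 0, m.q, m.j, !m.s, m.t⟩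
/-- left multiplication -/
def Lb (β γ : ZMod 4) (m : Mo) : Mo :=
  ⟨-m.p + cond m.s (γ - cond m.t β 0) (cond m.t β 0), m.q, xor (xor m.q m.j) m.s, m.s, !m.t⟩
/-- the product -/
def mul (α β γ : ZMod 4) (m n : Mo) : Mo :=
  LC m.p (cond m.q Lx id (cond m.j Lu id (cond m.s (La α) id (cond m.t (Lb β γ) id n))))

variable {S : Type*} [Group S]

/-- the relations -/
structure Rel (C : ZMod 4 → S) (x u a b : S) (α β γ : ZMod 4) : Prop where
  CC : ∀ p r, C p * C r = C (p + r)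
  xC : ∀ p, x * C p = C p * x
  uC : ∀ p, u * C p = C p * u
  aC : ∀ p, a * C p = C (-p) * a
  bC : ∀ p, b * C p = C (-p) * b
  xx : x * x = C 1
  ux : u * x = C 2 * x * u
  uu : u * u = 1
  ax : a * x = C 3 * x * a
  au : a * u = u * a
  aa : a * a = C α
  bx : b * x = x * u * b
  bu : b * u = u * b
  bb : b * b = C β
  ba : b * a = C γ * u * a * b

/-- normal form -/
def ev' (C : ZMod 4 → S) (x u a b : S) (m : Mo) (y : S) : S :=
  C m.p * (cond m.q x 1 * (cond m.j u 1 * (cond m.s a 1 * (cond m.t b 1 * y))))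

/-- normal form -/
def ev (C : ZMod 4 → S) (x u a b : S) (m : Mo) : S := ev' C x u a b m 1

variable {C : ZMod 4 → S} {x u a b : S} {α β γ : ZMod 4}

theorem Rel.C0 (h : Rel C x u a b α β γ) : C 0 = 1 := by simpa using h.CC 0 0

theorem Rel.mul (h : Rel C x u a b α β γ) (m n : Mo) :
    ev C x u a b (mul α β γ m n) = ev C x u a b m * ev C x u a b n := by
  have A : ∀ {g k w : S}, g * k = w → ∀ y, g * (k * y) = w * y := fun e y => by rw [← mul_assoc, e]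
  have e1 : ∀ r m y, ev' C x u a b (LC r m) y = C r * ev' C x u a b m y := fun r m y => by
    simp only [ev', LC, A (h.CC _ _)]
  have e2 : ∀ m y, ev' C x u a b (Lx m) y = x * ev' C x u a b m y := by
    rintro ⟨p, _ | _, j, s, t⟩ y <;> simp [ev', Lx, A (h.CC _ _), A (h.xC _), A h.xx, mul_assoc]
  have e3 : ∀ m y, ev' C x u a b (Lu m) y = u * ev' C x u a b m y := by
    rintro ⟨p, _ | _, _ | _, s, t⟩ y <;> simp [ev', Lu, A (h.CC _ _), A (h.uC _), A h.ux, A h.uu, mul_assoc]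
  have e4 : ∀ m y, ev' C x u a b (La α m) y = a * ev' C x u a b m y := by
    rintro ⟨p, _ | _, _ | _, _ | _, t⟩ y <;>
      simp [ev', La, A (h.CC _ _), A (h.uC _), A (h.xC _), A (h.aC _), A h.ax, A h.au, A h.aa, mul_assoc, add_assoc]
  have e5 : ∀ m y, ev' C x u a b (Lb β γ m) y = b * ev' C x u a b m y := by
    rintro ⟨p, _ | _, _ | _, _ | _, _ | _⟩ y <;>
      simp [ev', Lb, A (h.CC _ _), A (h.uC _), A (h.xC _), A (h.aC _), A (h.bC _), A h.bx, A h.bu, A h.ba, A h.bb,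
        A h.uu, mul_assoc, sub_eq_add_neg]
  obtain ⟨p, q, j, s, t⟩ := m
  simp only [ev, Fong.mul, e1]
  cases q <;> cases j <;> cases s <;> cases t <;> simp only [cond, id, e2, e3, e4, e5] <;> simp [ev', mul_assoc]

theorem exists_rel [Finite S] (hS : Nat.card S = 64) (hx : orderOf x = 8)
    (hc : ∀ y, y * x = x * y → y ∈ zpowers x) (h5 : ∃ y, y * x * y⁻¹ = x ^ 5) (h7 : ∃ y, y * x * y⁻¹ = x ^ 7) :
    ∃ C u a b α β γ, Rel C x u a b α β γ ∧ α + α = 0 ∧ β + β = 0 ∧ Function.Surjective (ev C x u a b) := by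
  obtain ⟨a5, h5⟩ := h5
  obtain ⟨a7, h7⟩ := h7
  have pw : ∀ m n, x ^ m = x ^ n ↔ m % 8 = n % 8 := fun m n => by rw [pow_eq_pow_iff_modEq, hx]; rfl
  have p1 : ∀ m, x ^ m = 1 ↔ m % 8 = 0 := fun m => by rw [← pow_zero x, pw]
  have px : ∀ m, x ^ m = x ↔ m % 8 = 1 := fun m => by nth_rewrite 2 [← pow_one x]; rw [pw]
  have hz : ∀ {y}, y ∈ zpowers x → ∃ n < 8, y = x ^ n := fun hy => by
    obtain ⟨n, rfl⟩ := (mem_powers_iff_mem_zpowers.2 hy :)
    exact ⟨n % 8, Nat.mod_lt _ (by norm_num), (pw _ _).2 (by simp)⟩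
  have cp : ∀ {g : S} {k}, g * x * g⁻¹ = x ^ k → ∀ n, g * x ^ n * g⁻¹ = x ^ (k * n) := fun e n => by
    rw [← conj_pow, e, pow_mul]
  have cm : ∀ {g g' : S} {k l}, g * x * g⁻¹ = x ^ k → g' * x * g'⁻¹ = x ^ l →
      g * g' * x * (g * g')⁻¹ = x ^ (k * l) := fun {g g' _ _} e e' => by
    rw [← cp e, ← e']; group
  have ci : ∀ {g : S} {k}, g * x * g⁻¹ = x ^ k → k * k % 8 = 1 → g⁻¹ * x * g⁻¹⁻¹ = x ^ k := fun {g k} e e' => by
    have := cp e k
    rw [(px _).2 e'] at this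
    nth_rewrite 1 [← this]; group
  have same : ∀ {g y : S}, g * x * g⁻¹ = y * x * y⁻¹ → g⁻¹ * y ∈ zpowers x := fun {g y} e => hc _ (by
    calc g⁻¹ * y * x = g⁻¹ * (y * x * y⁻¹) * y := by group
      _ = _ := by rw [← e]; group)
  have fx : ∀ {g : S} {k}, g * x * g⁻¹ = x ^ k → k % 8 = 1 → ∃ n < 8, g = x ^ n := fun {g k} e e' =>
    hz (hc _ (by rw [(px _).2 e'] at e; rw [← mul_inv_eq_iff_eq_mul, e]))
  obtain ⟨N, hN⟩ : ∃ N, N = normalizer (zpowers x : Set S) := ⟨_, rfl⟩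
  have mN : ∀ {g}, g * x * g⁻¹ ∈ zpowers x → g ∈ N := fun {g} e => hN ▸ mem_normalizer_fintype (by
    rintro _ ⟨i, rfl⟩
    rw [← conj_zpow]; exact zpow_mem e i)
  have mN' : ∀ {g k}, g * x * g⁻¹ = x ^ k → g ∈ N := fun e => mN (e ▸ pow_mem (mem_zpowers x) _)
  have o4 : ∀ g : S, (g * x * g⁻¹) ^ 4 ≠ 1 := fun g e => by
    rw [conj_pow, conj_eq_one_iff, p1] at e; omega
  have act : ∀ {g}, g ∈ N → ∃ k, (k = 1 ∨ k = 3 ∨ k = 5 ∨ k = 7) ∧ g * x * g⁻¹ = x ^ k := fun {g} hg => by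
    obtain ⟨k, k8, e⟩ := hz ((mem_normalizer_iff.1 (hN ▸ hg) x).1 (mem_zpowers x))
    have := o4 g
    rw [e, ← pow_mul, Ne, p1] at this
    exact ⟨k, by omega, e⟩
  have gen : ∀ (R : Submonoid S) {v w}, x ∈ R → v ∈ R → w ∈ R → v * x * v⁻¹ = x ^ 5 → w * x * w⁻¹ = x ^ 7 →
      ∀ g ∈ N, g ∈ R := fun R v w r1 r2 r3 e1 e2 g hg => by
    have t : ∀ y ∈ R, y * x * y⁻¹ = g * x * g⁻¹ → g ∈ R := fun y hy e => by
      obtain ⟨n, -, e'⟩ := hz (same e)
      exact mul_inv_cancel_left y g ▸ mul_mem hy (e' ▸ pow_mem r1 n)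
    obtain ⟨k, rfl | rfl | rfl | rfl, e⟩ := act hg
    exacts [t 1 (one_mem _) (by simp [e]), t _ (mul_mem r2 r3) (by rw [cm e1 e2, e, pw]), t _ r2 (e1.trans e.symm),
      t _ r3 (e2.trans e.symm)]
  have n1 : a5 ∈ normalizer (zpowers x : Set S) := hN ▸ mN' h5
  have c32 : Nat.card ↥(zpowers x ⊔ zpowers a5 ⊔ zpowers a7) = 32 := by
    have s2 : ∀ {g : S} {k}, g * x * g⁻¹ = x ^ k → k * k % 8 = 1 → g ^ 2 ∈ zpowers x := fun e e' => by
      obtain ⟨n, -, e⟩ := fx (cm e e) e'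
      rw [sq, e]; exact pow_mem (mem_zpowers x) n
    have q1 : a5 ∉ zpowers x := fun hy => by
      obtain ⟨n, -, e⟩ := hz hy
      rw [e, ← pow_succ, pow_succ', mul_inv_cancel_right, eq_comm, px] at h5; omega
    have q2 : a7 ∈ normalizer ((zpowers x ⊔ zpowers a5 : Subgroup S) : Set S) := mem_normalizer_fintype fun y hy => by
      obtain ⟨t, ht, i, rfl⟩ := (PGrp.mem_sup_zpowers n1).1 hy
      rw [← conj_mul, ← conj_zpow]
      refine mul_mem (mem_sup_left ((mem_normalizer_iff.1 (hN ▸ mN' h7) t).1 ht)) (zpow_mem ?_ i)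
      simpa using mul_mem (mem_sup_right (mem_zpowers a5) : a5 ∈ zpowers x ⊔ zpowers a5)
        (mem_sup_left (same (y := a7 * a5 * a7⁻¹) (h5.trans ((cm (cm h7 h5) (ci h7 rfl)).trans ((pw _ 5).2 rfl)).symm)))
    have q3 : a7 ∉ zpowers x ⊔ zpowers a5 := fun hy => by
      have : zpowers x ⊔ zpowers a5 ≤ centralizer {x ^ 2} := sup_le
        (zpowers_le.2 (mem_centralizer_singleton_iff.2 (Commute.self_pow x 2))) (zpowers_le.2
          (mem_centralizer_singleton_iff.2 (by rw [← mul_inv_eq_iff_eq_mul, cp h5, pw])))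
      have := mem_centralizer_singleton_iff.1 (this hy)
      rw [← mul_inv_eq_iff_eq_mul, cp h7, pw] at this; omega
    rw [PGrp.card_sup_zpowers Nat.prime_two q2 q3 (mem_sup_left (s2 h7 rfl)),
      PGrp.card_sup_zpowers Nat.prime_two n1 q1 (s2 h5 rfl), Nat.card_zpowers, hx]
  have iN : N.index = 2 := by
    have e : N = zpowers x ⊔ zpowers a5 ⊔ zpowers a7 := le_antisymm
      (gen (zpowers x ⊔ zpowers a5 ⊔ zpowers a7).toSubmonoid (mem_sup_left (mem_sup_left (mem_zpowers x)))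
        (mem_sup_left (mem_sup_right (mem_zpowers _))) (mem_sup_right (mem_zpowers _)) h5 h7)
      (sup_le (sup_le (hN ▸ le_normalizer) (zpowers_le.2 (mN' h5))) (zpowers_le.2 (mN' h7)))
    have := N.card_mul_index
    rw [hS, show Nat.card N = 32 from e ▸ c32] at this
    omega
  have nN := normal_of_index_eq_two iN
  have xN : x ∈ N := mN' (k := 1) (by simp)
  have key : ∀ {g}, g ∉ N → ∀ y, y = g * x * g⁻¹ → y * x * y⁻¹ = x ^ 5 ∧ (y * y = x ^ 2 ∨ y * y = x ^ 6) := by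
    intro g hg y hy
    obtain ⟨k, hk, e⟩ := act (hy ▸ nN.conj_mem x xN g : y ∈ N)
    obtain ⟨n, n8, e'⟩ := fx (cm e e) (by rcases hk with rfl | rfl | rfl | rfl <;> rfl)
    have a1 : x ^ (n * 2) ≠ 1 := by rw [pow_mul, ← e', ← sq, ← pow_mul, hy]; exact o4 g
    have a2 : x ^ (n * 4) = 1 := by rw [pow_mul, ← e', ← sq, ← pow_mul, hy, conj_pow, (p1 _).2 rfl]; simp
    have a3 := cp e n
    rw [← e', mul_assoc, mul_inv_cancel_right, e', pw] at a3
    have a4 : k ≠ 1 := by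
      rintro rfl
      obtain ⟨l, -, e''⟩ := fx e rfl
      exact hg (mN' (hy ▸ e''))
    rw [Ne, p1] at a1
    rw [p1] at a2
    obtain rfl | rfl : n = 2 ∨ n = 6 := by omega
    all_goals
      obtain rfl : k = 5 := by omega
      simp [e, e']
  obtain ⟨b0, b1, b2⟩ : ∃ g, g ∉ N ∧ g * x * g⁻¹ * (g * x * g⁻¹) = x ^ 6 := by
    obtain ⟨g, hg⟩ : ∃ g, g ∉ N := by
      by_contra c
      push Not at c
      rw [(eq_top_iff' N).2 c, index_top] at iN; cases iN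
    rcases (key hg _ rfl).2 with e | e
    · refine ⟨g * a7, fun c => hg ((mul_mem_cancel_right (mN' h7)).1 c), ?_⟩
      have : g * a7 * x * (g * a7)⁻¹ = (g * x * g⁻¹) ^ 7 := by rw [conj_pow, ← h7]; group
      rw [this, ← (Commute.refl _).mul_pow, e, ← pow_mul, pw]
    · exact ⟨g, hg, e⟩
  obtain ⟨y, hy⟩ : ∃ y, y = b0 * x * b0⁻¹ := ⟨_, rfl⟩
  have y5 := (key b1 y hy).1
  rw [← hy] at b2
  obtain ⟨u, hu⟩ : ∃ u, u = x⁻¹ * y := ⟨_, rfl⟩
  have yu : y = x * u := by rw [hu, mul_inv_cancel_left]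
  have u5 : u * x * u⁻¹ = x ^ 5 := by
    calc _ = x⁻¹ * (y * x * y⁻¹) * x := by rw [hu]; group
      _ = _ := by rw [y5]; group
  have uu : u * u = 1 := by
    calc _ = x⁻¹ * (y * x * y⁻¹)⁻¹ * (y * y) := by rw [hu]; group
      _ = _ := by rw [y5, b2]; group
  have adj : ∀ g : S, g * x ^ 4 * g⁻¹ = x ^ 4 → g * u * g⁻¹ * x * (g * u * g⁻¹)⁻¹ = x ^ 5 →
      ∃ g', g' * x * g'⁻¹ = g * x * g⁻¹ ∧ g' * u = u * g' := fun g e1 e2 => by
    obtain ⟨n, n8, e⟩ := hz (same (u5.trans e2.symm))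
    have e3 : g * u * g⁻¹ = u * x ^ n := by rw [← e, mul_inv_cancel_left]
    have e4 : x ^ (5 * n + n) = 1 := by
      rw [pow_add, ← cp u5, inv_eq_of_mul_eq_one_right uu, mul_assoc, ← e3, conj_mul, uu]; simp
    rw [p1] at e4
    obtain rfl | rfl : n = 0 ∨ n = 4 := by omega
    · exact ⟨g, rfl, by rw [← mul_inv_eq_iff_eq_mul, e3]; simp⟩
    refine ⟨g * x, by group, ?_⟩
    have e5 : x * u * x⁻¹ = u * x ^ 4 := by
      calc _ = u * (u⁻¹ * x * u⁻¹⁻¹) * x⁻¹ := by group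
        _ = _ := by rw [ci u5 rfl]; group
    rw [← mul_inv_eq_iff_eq_mul]
    calc _ = g * (x * u * x⁻¹) * g⁻¹ := by group
      _ = g * u * g⁻¹ * (g * x ^ 4 * g⁻¹) := by rw [e5]; group
      _ = _ := by rw [e3, e1, mul_assoc, ← pow_add, (p1 _).2 rfl, mul_one]
  obtain ⟨a, a7', au⟩ := adj a7 (by rw [cp h7, pw]) (by rw [cm (cm h7 u5) (ci h7 rfl), pw])
  rw [h7] at a7'
  obtain ⟨b, bx, bu⟩ := adj b0 (by
      rw [← conj_pow, ← hy, show 4 = 2 * 2 from rfl, pow_mul y, sq y, b2, ← pow_mul, pw]) (by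
    obtain ⟨k, -, e⟩ := act ((mul_mem_iff_of_index_two iN).2 Iff.rfl : b0 * b0 ∈ N)
    have : b0 * u * b0⁻¹ = y⁻¹ * x ^ k := by rw [← e, hu, hy]; group
    rw [this, ← ci y5 rfl]; group)
  rw [← hy] at bx
  have bN : b ∉ N := fun c => by
    obtain ⟨k, -, e⟩ := act c
    exact b1 (mN' (hy.symm.trans (bx.symm.trans e)))
  have bu' : b * u * b⁻¹ = u := by rw [bu, mul_inv_cancel_right]
  have au' : a * u * a⁻¹ = u := by rw [au, mul_inv_cancel_right]
  have bc : ∀ n, b * x ^ (2 * n) * b⁻¹ = x ^ (6 * n) := fun n => by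
    rw [← conj_pow, bx, pow_mul, sq, b2, pow_mul]
  have by' : b * y * b⁻¹ = x := by rw [yu, ← conj_mul, bx, bu', yu, mul_assoc, uu, mul_one]
  obtain ⟨n1, n18, e1⟩ := fx (cm a7' a7') rfl
  obtain ⟨n2, n28, e2⟩ := fx (g := b * b) (k := 1) (by
    rw [pow_one]; nth_rewrite 2 [← by']; rw [← bx]; group) rfl
  obtain ⟨n3, n38, e3⟩ := hz (same (g := u) (y := b * a * b⁻¹ * a⁻¹) (by
    calc _ = u⁻¹ * x * u⁻¹⁻¹ := u5.trans (ci u5 rfl).symm
      _ = b * (a * y⁻¹ * a⁻¹) * b⁻¹ := by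
        have q1 : a * y⁻¹ * a⁻¹ = u⁻¹ * x := by
          calc _ = (a * u * a⁻¹)⁻¹ * (a * x * a⁻¹)⁻¹ := by rw [yu]; group
            _ = _ := by rw [au', a7', inv_eq_of_mul_eq_one_left (show x * x ^ 7 = 1 by rw [← pow_succ', p1])]
        calc _ = (b * u * b⁻¹)⁻¹ * (b * x * b⁻¹) := by rw [bu', bx, yu]; group
          _ = _ := by rw [q1]; group
      _ = b * a * b⁻¹ * (a⁻¹ * x * a⁻¹⁻¹) * (b * a * b⁻¹)⁻¹ := by
        rw [ci a7' rfl, eq_inv_of_mul_eq_one_right (show x * x ^ 7 = 1 by rw [← pow_succ', p1]), ← by']; group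
      _ = _ := by group))
  have f1 : n1 = 0 ∨ n1 = 4 := by
    have := cp a7' n1
    rw [← e1, mul_assoc, mul_inv_cancel_right, e1, pw] at this; omega
  have f2 : n2 = 0 ∨ n2 = 4 := by
    have c1 : b * x ^ n2 * b⁻¹ = x ^ n2 := by rw [← e2]; group
    obtain ⟨l, rfl | rfl⟩ := Nat.even_or_odd' n2
    · rw [bc, pw] at c1; omega
    · rw [pow_succ, ← conj_mul, bc] at c1
      exact absurd (mN (by
        rw [eq_inv_mul_of_mul_eq c1]
        exact mul_mem (inv_mem (pow_mem (mem_zpowers x) _)) (mul_mem (pow_mem (mem_zpowers x) _) (mem_zpowers x)))) bN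
  have f3 : n3 % 2 = 0 := by
    have c : Commute u (u⁻¹ * (b * a * b⁻¹ * a⁻¹)) :=
      (Commute.refl u).inv_right.mul_right ((((Commute.symm bu).mul_right (Commute.symm au)).mul_right
        (Commute.symm bu).inv_right).mul_right (Commute.symm au).inv_right)
    have := cp u5 n3
    rw [← e3, c.eq, mul_inv_cancel_right, e3, pw] at this; omega
  have uC : ∀ n, u * x ^ (2 * n) = x ^ (2 * n) * u := fun n => by rw [← mul_inv_eq_iff_eq_mul, cp u5, pw]; omega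
  have v4 : ∀ p : ZMod 4, p.val < 4 := ZMod.val_lt
  have vn : ∀ p : ZMod 4, ((-p).val + p.val) % 4 = 0 := by decide
  have vc : ∀ n : ℕ, (n : ZMod 4).val = n % 4 := fun n => ZMod.val_natCast 4 n
  have R : Rel (fun p => x ^ (2 * p.val)) x u a b (n1 / 2 : ℕ) (n2 / 2 : ℕ) (n3 / 2 : ℕ) :=
    ⟨fun p r => by rw [← pow_add, pw, ZMod.val_add]; omega, fun p => (Commute.self_pow x _).eq, fun p => uC _,
      fun p => by rw [← mul_inv_eq_iff_eq_mul, cp a7', pw]; have := vn p; omega,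
      fun p => by rw [← mul_inv_eq_iff_eq_mul, bc, pw]; have := vn p; omega, (sq x).symm,
      by rw [← mul_inv_eq_iff_eq_mul, u5, ← pow_succ]; rfl, uu,
      by rw [← mul_inv_eq_iff_eq_mul, a7', ← pow_succ]; rfl, au, by rw [e1, pw, vc]; omega,
      by rw [← mul_inv_eq_iff_eq_mul, bx, yu], bu, by rw [e2, pw, vc]; omega, by
        rw [← uC, (pw _ n3).2 (by rw [vc]; omega), ← e3]; group⟩
  refine ⟨_, u, a, b, _, _, _, R, by rcases f1 with rfl | rfl <;> rfl, by rcases f2 with rfl | rfl <;> rfl, fun g => ?_⟩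
  let M : Submonoid S := ⟨⟨Set.range (ev (fun p : ZMod 4 => x ^ (2 * p.val)) x u a b), by
    rintro _ _ ⟨m, rfl⟩ ⟨n, rfl⟩; exact ⟨_, R.mul m n⟩⟩, ⟨0, false, false, false, false⟩, by simp [ev, ev']⟩
  have m1 := gen M ⟨⟨0, true, false, false, false⟩, by simp [ev, ev']⟩ ⟨⟨0, false, true, false, false⟩, by simp [ev, ev']⟩
    ⟨⟨0, false, false, true, false⟩, by simp [ev, ev']⟩ u5 a7'
  by_cases hg : g ∈ N
  · exact m1 g hg
  · exact mul_inv_cancel_left b g ▸ M.mul_mem ⟨⟨0, false, false, false, true⟩, by simp [ev, ev']⟩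
      (m1 _ ((mul_mem_iff_of_index_two iN).2 (by simp [hg, bN])))

end Cfsg.Agent.Fong
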